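import Cfsg.Agent.H928.Pw.TwSix
import Cfsg.Agent.H267.Ore.PTwo
import Cfsg.Agent.H194.Pw.Own
import Cfsg.Agent.H962.PP.Main

/-!
The product lemmas for `SL₃(q)` and `SL₂(q²)` (S2465, the rows `²E₆(q)`).

* `pp2` : `PPn 2 K ℓ` for a prime `ℓ ≥ 5` dividing `|K|² - 1`;
* `pp3_irr` : `PPn 3 F (1 + q + q²)`; `pp3_four` : `q = 4^k ≥ 16`.
-/

set_option autoImplicit false
set_option linter.unusedSectionVars false

namespace Cfsg.Agent.H928.Pw.TwP

open Polynomial Matrix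
open Cfsg.Agent.H928.Pw.Dg Cfsg.Agent.H928.Pw.TwSix
open Cfsg.Agent.H162.GaussSL (UT LT)
open Cfsg.Agent.H267.Ore.PTwo (tc)
open Cfsg.Agent.H194.Ore (M3)

universe u

/-! ### `SL₂` -/

theorem charpoly_two {K : Type u} [Field K] (A : SpecialLinearGroup (Fin 2) K) :
    (A : Matrix (Fin 2) (Fin 2) K).charpoly = X ^ 2 - C (tc A) * X + 1 := by
  rw [Matrix.charpoly_fin_two]
  have h1 : (A : Matrix (Fin 2) (Fin 2) K).det = 1 := A.2
  have h2 : (A : Matrix (Fin 2) (Fin 2) K).trace = tc A := Matrix.trace_fin_two _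
  rw [h1, h2, C_1]

theorem sp_two {K : Type u} [Field K] {ℓ : ℕ} (hℓ : ℓ.Prime) (h5 : 5 ≤ ℓ) (h0 : (ℓ : K) ≠ 0)
    {A : SpecialLinearGroup (Fin 2) K} (hA : orderOf A = ℓ) : Sp ℓ A := by
  obtain ⟨g1, g2, -, -⟩ := Cfsg.Agent.H267.Ore.PTwo.tc_facts hℓ h5 h0 hA
  have hd : (4 - tc A ^ 2 : K) ≠ 0 := by
    intro h
    have h1 : (2 - tc A) * (2 + tc A) = 0 := by linear_combination h
    rcases mul_eq_zero.1 h1 with h2 | h2
    · exact g1 (sub_eq_zero.1 h2).symm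
    · exact g2 (eq_neg_of_add_eq_zero_right h2)
  refine ⟨by rw [← hA, pow_orderOf_eq_one], ?_, ?_⟩
  · rw [charpoly_two, Polynomial.separable_def]
    refine ⟨C (4 * (4 - tc A ^ 2)⁻¹), - (C ((4 - tc A ^ 2)⁻¹) * (2 * X - C (tc A))), ?_⟩
    have h1 : derivative (X ^ 2 - C (tc A) * X + 1 : K[X]) = 2 * X - C (tc A) := by
      simp
      exact one_add_one_eq_two
    have h2 : (C ((4 - tc A ^ 2)⁻¹) : K[X]) * (4 - C (tc A) ^ 2) = 1 := by
      have h3 : (4 - C (tc A) ^ 2 : K[X]) = C (4 - tc A ^ 2) := by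
        rw [C_sub, C_pow]
        rfl
      rw [h3, ← C_mul, inv_mul_cancel₀ hd, C_1]
    rw [h1, C_mul, show (C (4 : K) : K[X]) = 4 from rfl]
    linear_combination h2
  · rw [charpoly_two]
    simp only [eval_add, eval_sub, eval_pow, eval_X, eval_mul, eval_C, eval_one]
    intro h
    apply g1
    linear_combination -h

/-- **`P_2`.** -/
theorem pp2 {K : Type u} [Field K] [Finite K] {ℓ : ℕ} (hℓ : ℓ.Prime) (h5 : 5 ≤ ℓ) (hd : ℓ ∣ Nat.card K ^ 2 - 1) :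
    PPn 2 K ℓ := by
  have h0 : (ℓ : K) ≠ 0 := by
    intro h
    obtain ⟨r, hrc⟩ := CharP.exists K
    have hr : r.Prime := (CharP.char_is_prime_or_zero K r).resolve_right (CharP.char_ne_zero_of_finite K r)
    have : Fact r.Prime := ⟨hr⟩
    have h1 : r ∣ ℓ := (CharP.cast_eq_zero_iff K r ℓ).1 h
    have h2 : r = ℓ := (Nat.prime_dvd_prime_iff_eq hr hℓ).1 h1
    have h3 : r ∣ Nat.card K := by
      have := Fintype.ofFinite K
      obtain ⟨n, -, hn⟩ := FiniteField.card K r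
      rw [Nat.card_eq_fintype_card, hn]
      exact dvd_pow_self r n.ne_zero
    have h4 : ℓ ∣ Nat.card K ^ 2 := h2 ▸ (h3.trans (dvd_pow_self _ two_ne_zero))
    have h5' : 1 ≤ Nat.card K ^ 2 := Nat.one_le_pow _ _ Nat.card_pos
    have h6 : ℓ ∣ 1 := (Nat.dvd_sub_iff_right h5' h4).1 hd
    exact hℓ.one_lt.ne' (Nat.dvd_one.1 h6)
  intro L hL U hU
  obtain ⟨x, y, e, hx, hy⟩ := Cfsg.Agent.H267.Ore.PTwo.p_two_prime hℓ h5 hd
    (Cfsg.Agent.H267.Ore.PTwo.nonscalar_LU hL hU)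
  exact ⟨x, y, e, sp_two hℓ h5 h0 hx, sp_two hℓ h5 h0 hy⟩

/-! ### `SL₃` -/

theorem sum3 (q : ℕ) : ∑ a ∈ Finset.range 3, q ^ a = 1 + q + q ^ 2 := by
  simp [Finset.sum_range_succ]

/-- **`P_3` from the irreducible pairs.** -/
theorem pp3_irr {F : Type u} [Field F] [Finite F] (h : M3 F) : PPn 3 F (1 + Nat.card F + Nat.card F ^ 2) := by
  intro L hL U hU
  obtain ⟨X, Y, e, hX, hY, -⟩ := h L hL U hU
  have key : ∀ {X : SpecialLinearGroup (Fin 3) F}, Irreducible (X : Matrix (Fin 3) (Fin 3) F).charpoly →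
      Sp (1 + Nat.card F + Nat.card F ^ 2) X := by
    intro X hX
    refine Sp.of_irreducible (by norm_num) ?_ hX
    rw [← sum3]
    exact Cfsg.Agent.H194.Pw.irr_pow hX
  exact ⟨X, Y, e, key hX, key hY⟩

end Cfsg.Agent.H928.Pw.TwP
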