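import Cfsg.Agent.H928.Pw.TwAll
import Cfsg.Agent.H85.Pw.PThree

/-!
**The row `²E₆(q)`**, all `q`, of S2465.
-/

set_option autoImplicit false

namespace Cfsg.Agent.H928.Pw.Row

open Cfsg.Lie
open Cfsg.Agent.H928.Pw.TwSix Cfsg.Agent.H928.Pw.Dg
open Cfsg.Agent.H78.Pw (Pw)

universe u

theorem pp3_four {F : Type u} [Field F] [Finite F] (hF : Nat.card F = 4) : PPn 3 F 7 := by
  intro L hL U hU
  obtain ⟨X, Y, e, hX, hY, h1, h2⟩ := Cfsg.Agent.H85.Pw.PThree.p_three_four hF L U hL hU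
  exact ⟨X, Y, e, Sp.of_irreducible (by norm_num) h1 hX, Sp.of_irreducible (by norm_num) h2 hY⟩

/-- **The row `²E₆(q)`.** -/
theorem pw {K : Type u} [Field K] [Fintype K] {q : ℕ} (hq : IsPrimePow q) (hK : Fintype.card K = q ^ 2) :
    Pw ↥(twistedE6 K q) := by
  by_cases h4 : q = 4
  · subst h4
    exact Cfsg.Agent.H928.Pw.TwAll.pw_four hK fun F _ _ hF => pp3_four hF
  · exact Cfsg.Agent.H928.Pw.TwAll.pw_ne_four hq hK h4

end Cfsg.Agent.H928.Pw.Row
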