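import Cfsg.Agent.H928.Pw.TwFour
import Cfsg.Agent.H928.Ore.TwAll

/-!
**The row `²E₆(q)` of S2465.**
-/

set_option autoImplicit false

namespace Cfsg.Agent.H928.Pw.TwAll

open Cfsg.Lie
open Cfsg.Agent.H928.Pw.TwSix Cfsg.Agent.H928.Pw.TwP Cfsg.Agent.H928.Pw.TwFour Cfsg.Agent.H928.Pw.Dg
open Cfsg.Agent.Nodes.RGDFoldSL (Fx mem_Fx)
open Cfsg.Agent.H78.Pw (All Pr Pw)

universe u

theorem coprime_six {m : ℕ} (h2 : ¬ 2 ∣ m) (h3 : ¬ 3 ∣ m) : m.Coprime 6 := by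
  rw [show 6 = 2 * 3 by norm_num]
  exact Nat.Coprime.mul_right ((Nat.Prime.coprime_iff_not_dvd Nat.prime_two).2 h2).symm
    ((Nat.Prime.coprime_iff_not_dvd Nat.prime_three).2 h3).symm

theorem prime_coprime_six {ℓ : ℕ} (hℓ : ℓ.Prime) (h5 : 5 ≤ ℓ) : ℓ.Coprime 6 := by
  rw [show 6 = 2 * 3 by norm_num]
  exact Nat.Coprime.mul_right ((Nat.coprime_primes hℓ Nat.prime_two).2 (by omega))
    ((Nat.coprime_primes hℓ Nat.prime_three).2 (by omega))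

theorem cop_aux {q ℓ : ℕ} (hq : 1 < q) (hℓ : ℓ.Prime) (h5 : 5 ≤ ℓ) (hd : ℓ ∣ (q ^ 2) ^ 2 - 1) {N : ℕ}
    (hN : N ∣ 1 + q + q ^ 2) : N.Coprime ℓ := by
  rw [Nat.coprime_comm, Nat.Prime.coprime_iff_not_dvd hℓ]
  intro h
  have h1 : (ℓ : ℤ) ∣ 1 + q + q ^ 2 := by exact_mod_cast h.trans hN
  have h0 : 1 ≤ (q ^ 2) ^ 2 := Nat.one_le_pow _ _ (by positivity)
  have h2 : (ℓ : ℤ) ∣ (q ^ 2) ^ 2 - 1 := by
    have := Int.natCast_dvd_natCast.2 hd
    rw [Nat.cast_sub h0] at this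
    exact_mod_cast this
  have h3 : (ℓ : ℤ) ∣ q - 1 := by
    have e : (q : ℤ) - 1 = ((q : ℤ) ^ 2) ^ 2 - 1 - (1 + q + q ^ 2) * ((q : ℤ) ^ 2 - q) := by ring
    rw [e]
    exact dvd_sub h2 (h1.mul_right _)
  have h4 : (ℓ : ℤ) ∣ 3 := by
    have e : (3 : ℤ) = (1 + q + q ^ 2) - ((q : ℤ) - 1) * (q + 2) := by ring
    rw [e]
    exact dvd_sub h1 (h3.mul_right _)
  have h6 : ℓ ∣ 3 := by exact_mod_cast h4
  have := Nat.le_of_dvd (by norm_num) h6
  omega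

/-- the general case -/
theorem all6_gen {K : Type u} [Field K] [Fintype K] {q : ℕ} (hq : IsPrimePow q) (hK : Fintype.card K = q ^ 2)
    (h : 2 ∣ q ∨ 3 ∣ q) (h3 : q % 3 ≠ 1) : All 6 ↥(twistedE6 K q) := by
  have hq1 := hq.one_lt
  have hcK : Nat.card K = q ^ 2 := by rw [Nat.card_eq_fintype_card, hK]
  obtain ⟨ℓ, hℓ, h5, hd⟩ := Cfsg.Agent.H267.Ore.PTwo.exists_prime (q := q ^ 2) (by nlinarith) (by
    rcases h with h | h
    · exact Or.inl (h.trans (dvd_pow_self q two_ne_zero))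
    · exact Or.inr (h.trans (dvd_pow_self q two_ne_zero)))
  refine all6_of hq hK (N := 1 + q + q ^ 2) (M := ℓ) (cop_aux hq1 hℓ h5 hd dvd_rfl) ?_ (prime_coprime_six hℓ h5) ?_ ?_
  · have e2 : 2 ∣ q + q ^ 2 := by
      have h7 : q + q ^ 2 = q * (q + 1) := by ring
      rw [h7]
      rcases Nat.even_or_odd q with h8 | h8
      · exact (even_iff_two_dvd.1 h8).mul_right _
      · exact (even_iff_two_dvd.1 h8.add_one).mul_left _
    refine coprime_six (by omega) ?_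
    intro h9
    have h10 : q % 3 = 0 ∨ q % 3 = 2 := by omega
    have h11 : (1 + q + q ^ 2) % 3 = 0 := Nat.mod_eq_zero_of_dvd h9
    rw [Nat.add_mod, Nat.add_mod 1 q, Nat.pow_mod] at h11
    rcases h10 with h10 | h10 <;> rw [h10] at h11 <;> norm_num at h11
  · intro φ hφ
    have hc := Cfsg.Agent.H928.Ore.TwFin.card_Fx hq1 hK hφ
    have h12 := pp3_irr (Cfsg.Agent.H928.War.TwOne.m3_all hq hK hφ)
    rw [hc] at h12
    exact h12
  · exact pp2 hℓ h5 (by rw [hcK]; exact hd)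

/-- `q = 4^k ≥ 16` -/
theorem all6_four {K : Type u} [Field K] [Fintype K] {q : ℕ} (hq : IsPrimePow q) (hK : Fintype.card K = q ^ 2)
    (h : 2 ∣ q) (h3 : q % 3 = 1) (h4 : q ≠ 4) : All 6 ↥(twistedE6 K q) := by
  have hq1 := hq.one_lt
  have hcK : Nat.card K = q ^ 2 := by rw [Nat.card_eq_fintype_card, hK]
  obtain ⟨m, hm⟩ : ∃ m, q = 2 ^ m := by
    obtain ⟨p, k, hp, hk, rfl⟩ := hq
    have hp2 : 2 = p := (Nat.prime_dvd_prime_iff_eq Nat.prime_two hp.nat_prime).1 (Nat.prime_two.dvd_of_dvd_pow h)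
    exact ⟨k, by rw [← hp2]⟩
  have hlt : 4 < q := by omega
  obtain ⟨ℓ₁, g1, g2, g3⟩ := exists_prime_sub hm h3 hlt
  obtain ⟨ℓ₂, g4, g5, g6⟩ := exists_prime_of (m := q + 1) (by omega) (by omega) (by omega)
  have e3 : q ^ 2 % 3 = 1 := by rw [Nat.pow_mod, h3]
  have e2 : 2 ∣ q ^ 2 := h.trans (dvd_pow_self q two_ne_zero)
  obtain ⟨ℓ, g7, g8, g9⟩ := exists_prime_of (m := q ^ 2 + 1) (by omega) (by omega) (by omega)
  have hd : ℓ ∣ (q ^ 2) ^ 2 - 1 := by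
    have e : (q ^ 2) ^ 2 - 1 = (q ^ 2 - 1) * (q ^ 2 + 1) := by
      obtain ⟨s, hs⟩ : ∃ s, q ^ 2 = s + 1 := ⟨q ^ 2 - 1, by omega⟩
      rw [hs, Nat.add_sub_cancel]
      have : (s + 1) ^ 2 = s * (s + 1 + 1) + 1 := by ring
      rw [this, Nat.add_sub_cancel]
    rw [e]
    exact g9.mul_left _
  have key : ∀ t : ℕ, t.Prime → 5 ≤ t → (t ∣ q - 1 ∨ t ∣ q + 1) → t ≠ ℓ := by
    rintro t ht ht5 htd rfl
    have e : q ^ 2 - 1 = (q - 1) * (q + 1) := by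
      obtain ⟨s, hs⟩ : ∃ s, q = s + 1 := ⟨q - 1, by omega⟩
      rw [hs, Nat.add_sub_cancel]
      have : (s + 1) ^ 2 = s * (s + 1 + 1) + 1 := by ring
      rw [this, Nat.add_sub_cancel]
    have h5 : t ∣ q ^ 2 - 1 := by
      rw [e]
      rcases htd with h | h
      · exact h.mul_right _
      · exact h.mul_left _
    have h6 := Nat.dvd_sub g9 h5
    have h7 : 1 ≤ q ^ 2 := Nat.one_le_pow _ _ (by omega)
    rw [show q ^ 2 + 1 - (q ^ 2 - 1) = 2 by omega] at h6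
    have := Nat.le_of_dvd (by norm_num) h6
    omega
  refine all6_of hq hK (N := ℓ₁ * ℓ₂) (M := ℓ) ?_ ?_ (prime_coprime_six g7 g8) ?_ ?_
  · exact Nat.Coprime.mul_left ((Nat.coprime_primes g1 g7).2 (key _ g1 g2 (Or.inl g3)))
      ((Nat.coprime_primes g4 g7).2 (key _ g4 g5 (Or.inr g6)))
  · exact Nat.Coprime.mul_left (prime_coprime_six g1 g2) (prime_coprime_six g4 g5)
  · exact fun φ hφ => pp3_four hq1 hK hφ g1 g4 g2 g5 g3 g6
  · exact pp2 g7 g8 (by rw [hcK]; exact hd)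

/-- **The row `²E₆(q)`, `q ≠ 4`.** -/
theorem pw_ne_four {K : Type u} [Field K] [Fintype K] {q : ℕ} (hq : IsPrimePow q) (hK : Fintype.card K = q ^ 2)
    (h4 : q ≠ 4) : Pw ↥(twistedE6 K q) := by
  refine pw_of hq hK fun h => ?_
  by_cases h3 : q % 3 = 1
  · refine all6_four hq hK ?_ h3 h4
    rcases h with h | h
    · exact h
    · omega
  · exact all6_gen hq hK h h3

/-- **The row `²E₆(4)`**, from the product lemma for `SL₃(4)`. -/
theorem pw_four {K : Type u} [Field K] [Fintype K] (hK : Fintype.card K = 4 ^ 2)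
    (h : ∀ (F : Type u) [Field F] [Finite F], Nat.card F = 4 → PPn 3 F 7) : Pw ↥(twistedE6 K 4) := by
  have hq : IsPrimePow 4 := ⟨2, 2, Nat.prime_two.prime, by norm_num, by norm_num⟩
  refine pw_of hq hK fun _ => ?_
  refine all6_of hq hK (N := 7) (M := 5) (by norm_num) (by norm_num) (by norm_num) (fun φ hφ => h _ ?_) ?_
  · exact Cfsg.Agent.H928.Ore.TwFin.card_Fx (by norm_num) hK hφ
  · exact pp2 (by norm_num) le_rfl (by rw [Nat.card_eq_fintype_card, hK]; norm_num)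

end Cfsg.Agent.H928.Pw.TwAll
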