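import Cfsg.Agent.H928.Pw.TwP
import Cfsg.Agent.H928.Ore.TwN

/-!
The product lemma for `SL₃(q)`, `q = 4^k ≥ 16`, orders prime to `6` (S2465): both factors have the eigenvalues
`λ₁⁻², λ₁ λ₂, λ₁ λ₂⁻¹`, the orders of `λ₁`, `λ₂` being primes `≥ 5` dividing `q - 1`, `q + 1`.
-/

set_option autoImplicit false
set_option linter.unusedSectionVars false

namespace Cfsg.Agent.H928.Pw.TwFour

open Polynomial Matrix
open Cfsg.Agent.H928.Pw.Dg Cfsg.Agent.H928.Pw.TwSix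
open Cfsg.Agent.H162.GaussSL (UT LT)
open Cfsg.Agent.Nodes.RGDFoldSL (Fx mem_Fx)

universe u

/-- scalar matrices in the big cell -/
theorem eq_one_of_scalar {F : Type u} [Field F] {L U : SpecialLinearGroup (Fin 3) F} (hL : L ∈ LT 3 F) (hU : U ∈ UT 3 F)
    {c : F} (h : (L * U).1 = scalar (Fin 3) c) : L * U = 1 := by
  rw [Cfsg.Agent.H162.GaussSL.mem_LT] at hL
  rw [Cfsg.Agent.H162.GaussSL.mem_UT] at hU
  have h0 : (L * U).1 0 0 = 1 := by
    change (L.1 * U.1) 0 0 = 1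
    rw [Matrix.mul_apply, Fin.sum_univ_three, hL.2, hU.2, hL.1 0 1 (by decide), hL.1 0 2 (by decide)]
    ring
  rw [h, scalar_apply, diagonal_apply_eq] at h0
  apply Subtype.ext
  rw [h, h0]
  exact map_one _

/-- **The product lemma with given eigenvalues.** -/
theorem pp3_of {F : Type u} [Field F] {K : Type u} [Field K] (ι : F →+* K) {lam : Fin 3 → K}
    (hinj : Function.Injective lam) {ν a b : F} (hν : ι ν = lam 0) (ha : ι a = lam 1 + lam 2) (hb : ι b = lam 1 * lam 2)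
    (h1 : lam 0 * (lam 1 * lam 2) = 1) {N : ℕ} (hN : ∀ i, lam i ^ N = 1) (hne : ∀ i, lam i ≠ 1) : PPn 3 F N := by
  have hνb : ν * b = 1 := by
    apply ι.injective
    rw [map_mul, map_one, hν, hb, h1]
  have hb0 : b ≠ 0 := right_ne_zero_of_mul_eq_one hνb
  have hν0 : ν ≠ 0 := left_ne_zero_of_mul_eq_one hνb
  set f : F[X] := X ^ 2 - C a * X + C b with hf
  have hfm : f.Monic := by rw [hf]; monicity!
  have hfd : f.natDegree = 2 := by rw [hf]; compute_degree!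
  have hf0 : f.coeff 0 = b := by rw [hf]; simp
  set p : F[X] := (X - C ν) * f with hp
  have hpm : p.Monic := (monic_X_sub_C ν).mul hfm
  have hpd : p.natDegree = 3 := by
    rw [hp, (monic_X_sub_C ν).natDegree_mul hfm, natDegree_X_sub_C, hfd]
  have hp0 : p.coeff 0 = -1 := by
    rw [hp, mul_coeff_zero, hf0]
    simp
    exact hνb
  have hpK : p.map ι = ∏ i, (X - C (lam i)) := by
    rw [Fin.prod_univ_three, hp, hf, Polynomial.map_mul, Polynomial.map_sub, Polynomial.map_add, Polynomial.map_sub,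
      Polynomial.map_mul, Polynomial.map_pow, map_X, map_C, map_C, map_C, hν, ha, hb, C_add, C_mul]
    ring
  have key : ∀ X : SpecialLinearGroup (Fin 3) F, X.1.charpoly = p → Sp N X := fun X hX =>
    Sp.of_split ι hinj (by rw [← hpK]; exact congrArg (Polynomial.map ι) hX) hN hne (by norm_num)
  have main : ∀ A : SpecialLinearGroup (Fin 3) F, (∀ c, A.1 ≠ scalar (Fin 3) c) →
      ∃ x y : SpecialLinearGroup (Fin 3) F, A = x * y ∧ Sp N x ∧ Sp N y := by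
    intro A hA
    obtain ⟨x, y, e, hx, -, c, hc, hy⟩ := Cfsg.Agent.H962.PP.exists_mul (k := 1) A.1
      (by rw [A.2]; exact one_ne_zero) hA hpm hpd (by rw [hp0]; exact neg_ne_zero.2 one_ne_zero) hfm hfd
      (by rw [hf0]; exact hb0)
    have hdx : x.det = 1 := by
      rw [Matrix.det_eq_sign_charpoly_coeff, hx, hp0, Fintype.card_fin]
      ring
    have hdy : y.det = 1 := by
      have h2 := congrArg Matrix.det e
      rw [A.2, det_mul, hdx, one_mul] at h2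
      exact h2.symm
    have hcν : c = ν := by
      rw [Matrix.det_eq_sign_charpoly_coeff, hy, mul_coeff_zero, hf0] at hdy
      simp at hdy
      have h3 : c * b = ν * b := by
        rw [hνb]
        linear_combination hdy
      exact mul_right_cancel₀ hb0 h3
    exact ⟨⟨x, hdx⟩, ⟨y, hdy⟩, Subtype.ext e, key _ hx, key _ (by rw [hcν] at hy; exact hy)⟩
  intro L hL U hU
  by_cases hs : ∃ c, (L * U).1 = scalar (Fin 3) c
  · obtain ⟨c, hc⟩ := hs
    rw [eq_one_of_scalar hL hU hc]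
    have hT : ∀ c, (SpecialLinearGroup.transvection (show (0 : Fin 3) ≠ 1 by decide) (1 : F)).1 ≠ scalar (Fin 3) c := by
      intro c h
      have h2 := congrFun (congrFun h 0) 1
      rw [scalar_apply, diagonal_apply_ne _ (by decide)] at h2
      change (1 + Matrix.single (0 : Fin 3) 1 (1 : F)) 0 1 = 0 at h2
      simp at h2
    obtain ⟨x, -, -, hx, -⟩ := main _ hT
    exact ⟨x, x⁻¹, (mul_inv_cancel x).symm, hx, hx.inv (by norm_num)⟩
  · exact main _ (not_exists.1 hs)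

/-! ### The primes -/

theorem exists_prime_of {m : ℕ} (h1 : 1 < m) (h2 : ¬ 2 ∣ m) (h3 : ¬ 3 ∣ m) : ∃ ℓ : ℕ, ℓ.Prime ∧ 5 ≤ ℓ ∧ ℓ ∣ m := by
  have hp := Nat.minFac_prime (n := m) (by omega)
  refine ⟨m.minFac, hp, ?_, Nat.minFac_dvd m⟩
  by_contra hlt
  have h2' := hp.two_le
  have hd := Nat.minFac_dvd m
  have h4 : m.minFac = 2 ∨ m.minFac = 3 ∨ m.minFac = 4 := by omega
  rcases h4 with h4 | h4 | h4
  · exact h2 (h4 ▸ hd)
  · exact h3 (h4 ▸ hd)
  · rw [h4] at hp; exact absurd hp (by norm_num)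

theorem exists_prime_sub {q m : ℕ} (hm : q = 2 ^ m) (h3 : q % 3 = 1) (h4 : 4 < q) :
    ∃ ℓ : ℕ, ℓ.Prime ∧ 5 ≤ ℓ ∧ ℓ ∣ q - 1 := by
  have hmod : ∀ k : ℕ, 2 ^ (2 * k) % 3 = 1 ∧ 2 ^ (2 * k + 1) % 3 = 2 := by
    intro k
    induction k with
    | zero => norm_num
    | succ k ih =>
      have e1 : 2 ^ (2 * (k + 1)) = 2 ^ (2 * k) * 4 := by rw [mul_add, pow_add]; norm_num
      have e2 : 2 ^ (2 * (k + 1) + 1) = 2 ^ (2 * k + 1) * 4 := by
        rw [show 2 * (k + 1) + 1 = (2 * k + 1) + 2 by ring, pow_add]; norm_num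
      omega
  obtain ⟨k, rfl | rfl⟩ : ∃ k, m = 2 * k ∨ m = 2 * k + 1 := ⟨m / 2, by omega⟩
  · have hk : 2 ≤ k := by
      by_contra h
      have : k = 0 ∨ k = 1 := by omega
      rcases this with rfl | rfl
      · rw [hm] at h4; norm_num at h4
      · rw [hm] at h4; norm_num at h4
    have ht : 4 ≤ 2 ^ k := by
      calc 4 = 2 ^ 2 := by norm_num
        _ ≤ 2 ^ k := Nat.pow_le_pow_right (by norm_num) hk
    have ht2 : 2 ∣ 2 ^ k := dvd_pow_self 2 (by omega)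
    have e : q - 1 = (2 ^ k - 1) * (2 ^ k + 1) := by
      rw [hm, pow_mul', pow_two]
      obtain ⟨s, hs⟩ : ∃ s, 2 ^ k = s + 1 := ⟨2 ^ k - 1, by omega⟩
      rw [hs, Nat.add_sub_cancel]
      have : (s + 1) * (s + 1) = s * (s + 1 + 1) + 1 := by ring
      rw [this, Nat.add_sub_cancel]
    have hqk : (2 ^ k * 2 ^ k) % 3 = 1 := by rw [← pow_two, ← pow_mul', ← hm]; exact h3
    by_cases h5 : 2 ^ k % 3 = 1
    · obtain ⟨ℓ, g1, g2, g3⟩ := exists_prime_of (m := 2 ^ k + 1) (by omega) (by omega) (by omega)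
      exact ⟨ℓ, g1, g2, e ▸ g3.mul_left _⟩
    · have h6 : 2 ^ k % 3 = 2 := by
        have h7 : 2 ^ k % 3 = 0 ∨ 2 ^ k % 3 = 1 ∨ 2 ^ k % 3 = 2 := by omega
        rcases h7 with h7 | h7 | h7
        · rw [Nat.mul_mod, h7] at hqk
          norm_num at hqk
        · exact absurd h7 h5
        · exact h7
      obtain ⟨ℓ, g1, g2, g3⟩ := exists_prime_of (m := 2 ^ k - 1) (by omega) (by omega) (by omega)
      exact ⟨ℓ, g1, g2, e ▸ g3.mul_right _⟩
  · rw [hm, (hmod k).2] at h3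
    omega

/-- **`P_3`, `q = 4^k ≥ 16`.** -/
theorem pp3_four {K : Type u} [Field K] [Fintype K] {q : ℕ} (hq1 : 1 < q) (hK : Fintype.card K = q ^ 2) {φ : K →+* K}
    (hφ : ∀ t, φ t = t ^ q) {ℓ₁ ℓ₂ : ℕ} (h₁ : ℓ₁.Prime) (h₂ : ℓ₂.Prime) (h5 : 5 ≤ ℓ₁) (h5' : 5 ≤ ℓ₂) (hd₁ : ℓ₁ ∣ q - 1)
    (hd₂ : ℓ₂ ∣ q + 1) : PPn 3 (Fx φ 1) (ℓ₁ * ℓ₂) := by
  classical
  have hne : ℓ₁ ≠ ℓ₂ := by
    rintro rfl
    have h3 : ℓ₁ ∣ (q + 1) - (q - 1) := Nat.dvd_sub hd₂ hd₁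
    rw [show (q + 1) - (q - 1) = 2 by omega] at h3
    have := Nat.le_of_dvd (by norm_num) h3
    omega
  have hcard : Nat.card Kˣ = (q - 1) * (q + 1) := by
    rw [Nat.card_eq_fintype_card, Fintype.card_units, hK]
    obtain ⟨m, rfl⟩ : ∃ m, q = m + 2 := ⟨q - 2, by omega⟩
    have e : (m + 2) ^ 2 = (m + 1) * (m + 3) + 1 := by ring
    rw [e]
    simp
  obtain ⟨a, ha⟩ := exists_prime_orderOf_dvd_card' (G := Kˣ) (hp := ⟨h₁⟩) ℓ₁ (by rw [hcard]; exact hd₁.mul_right _)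
  obtain ⟨b, hb⟩ := exists_prime_orderOf_dvd_card' (G := Kˣ) (hp := ⟨h₂⟩) ℓ₂ (by rw [hcard]; exact hd₂.mul_left _)
  have ha0 : a ^ ℓ₁ = 1 := by rw [← ha, pow_orderOf_eq_one]
  have hb0 : b ^ ℓ₂ = 1 := by rw [← hb, pow_orderOf_eq_one]
  have haq : a ^ q = a := by
    obtain ⟨c, hc⟩ := hd₁
    calc a ^ q = a ^ (q - 1 + 1) := by rw [Nat.sub_add_cancel hq1.le]
      _ = a := by rw [pow_succ, hc, pow_mul, ha0, one_pow, one_mul]
  have hbq : b ^ q = b⁻¹ := by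
    obtain ⟨c, hc⟩ := hd₂
    have h3 : b ^ q * b = 1 := by rw [← pow_succ, hc, pow_mul, hb0, one_pow]
    exact eq_inv_of_mul_eq_one_left h3
  -- coprime orders
  have key : ∀ i j : ℤ, a ^ i = b ^ j → a ^ i = 1 ∧ b ^ j = 1 := by
    intro i j h
    have g1 : (a ^ i) ^ ℓ₁ = 1 := by rw [← _root_.zpow_natCast, ← _root_.zpow_mul, mul_comm, _root_.zpow_mul, _root_.zpow_natCast, ha0, _root_.one_zpow]
    have g2 : (b ^ j) ^ ℓ₂ = 1 := by rw [← _root_.zpow_natCast, ← _root_.zpow_mul, mul_comm, _root_.zpow_mul, _root_.zpow_natCast, hb0, _root_.one_zpow]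
    have g3 : (a ^ i) ^ ℓ₂ = 1 := by rw [h, g2]
    have g4 := Nat.dvd_gcd (orderOf_dvd_of_pow_eq_one g1) (orderOf_dvd_of_pow_eq_one g3)
    rw [(Nat.coprime_primes h₁ h₂).2 hne |>.gcd_eq_one, Nat.dvd_one, orderOf_eq_one_iff] at g4
    exact ⟨g4, h ▸ g4⟩
  have ha' : ∀ i : ℤ, 0 < |i| → |i| < 5 → a ^ i ≠ 1 := by
    intro i h1 h2 h3
    have h4 := orderOf_dvd_iff_zpow_eq_one.2 h3
    rw [ha] at h4
    have h6 := Int.le_of_dvd h1 ((dvd_abs _ _).2 h4)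
    omega
  have hb' : ∀ i : ℤ, 0 < |i| → |i| < 5 → b ^ i ≠ 1 := by
    intro i h1 h2 h3
    have h4 := orderOf_dvd_iff_zpow_eq_one.2 h3
    rw [hb] at h4
    have h6 := Int.le_of_dvd h1 ((dvd_abs _ _).2 h4)
    omega
  -- the eigenvalues
  let lam : Fin 3 → Kˣ := ![a ^ (-2 : ℤ), a * b, a * b⁻¹]
  have hφu : ∀ u : Kˣ, φ (u : K) = ((u ^ q : Kˣ) : K) := fun u => by rw [hφ, Units.val_pow_eq_pow_val]
  have e0 : (a ^ (-2 : ℤ)) ^ q = a ^ (-2 : ℤ) := by
    rw [← _root_.zpow_natCast, ← _root_.zpow_mul, mul_comm, _root_.zpow_mul, _root_.zpow_natCast, haq]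
  have e1 : (a * b) ^ q = a * b⁻¹ := by rw [mul_pow, haq, hbq]
  have e2 : (a * b⁻¹) ^ q = a * b := by rw [mul_pow, haq, inv_pow, hbq, inv_inv]
  have m0 : φ ((a ^ (-2 : ℤ) : Kˣ) : K) = ((a ^ (-2 : ℤ) : Kˣ) : K) := by rw [hφu, e0]
  have m1 : φ (((a * b : Kˣ) : K) + ((a * b⁻¹ : Kˣ) : K)) = ((a * b : Kˣ) : K) + ((a * b⁻¹ : Kˣ) : K) := by
    rw [map_add, hφu, hφu, e1, e2, add_comm]
  have m2 : φ (((a * b : Kˣ) : K) * ((a * b⁻¹ : Kˣ) : K)) = ((a * b : Kˣ) : K) * ((a * b⁻¹ : Kˣ) : K) := by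
    rw [map_mul, hφu, hφu, e1, e2, mul_comm]
  have d01 : a ^ (-2 : ℤ) ≠ a * b := by
    intro h
    have h3 : a ^ (-3 : ℤ) = b ^ (1 : ℤ) := by
      rw [_root_.zpow_one, show (-3 : ℤ) = -1 + -2 by norm_num, _root_.zpow_add, h]
      group
    exact ha' (-3) (by norm_num) (by norm_num) (key _ _ h3).1
  have d02 : a ^ (-2 : ℤ) ≠ a * b⁻¹ := by
    intro h
    have h3 : a ^ (-3 : ℤ) = b ^ (-1 : ℤ) := by
      rw [_root_.zpow_neg_one, show (-3 : ℤ) = -1 + -2 by norm_num, _root_.zpow_add, h]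
      group
    exact ha' (-3) (by norm_num) (by norm_num) (key _ _ h3).1
  have d12 : a * b ≠ a * b⁻¹ := by
    intro h
    have h3 := mul_left_cancel h
    have h4 : b ^ (2 : ℤ) = 1 := by
      rw [_root_.zpow_two]
      nth_rw 1 [h3]
      exact inv_mul_cancel b
    exact hb' 2 (by norm_num) (by norm_num) h4
  have n1 : a * b ≠ 1 := by
    intro h
    have h3 : a ^ (1 : ℤ) = b ^ (-1 : ℤ) := by rw [_root_.zpow_one, _root_.zpow_neg_one]; exact eq_inv_of_mul_eq_one_left h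
    exact ha' 1 (by norm_num) (by norm_num) (key _ _ h3).1
  have n2 : a * b⁻¹ ≠ 1 := by
    intro h
    have h3 : a ^ (1 : ℤ) = b ^ (1 : ℤ) := by rw [_root_.zpow_one, _root_.zpow_one]; exact mul_inv_eq_one.1 h
    exact ha' 1 (by norm_num) (by norm_num) (key _ _ h3).1
  have hinj : Function.Injective fun i => ((lam i : Kˣ) : K) := by
    intro i j hij
    have hij' : lam i = lam j := Units.ext hij
    fin_cases i <;> fin_cases j
    · rfl
    · exact absurd hij' d01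
    · exact absurd hij' d02
    · exact absurd hij'.symm d01
    · rfl
    · exact absurd hij' d12
    · exact absurd hij'.symm d02
    · exact absurd hij'.symm d12
    · rfl
  refine pp3_of (Fx φ 1).subtype (lam := fun i => ((lam i : Kˣ) : K)) hinj (ν := ⟨_, mem_Fx.2 m0⟩) (a := ⟨_, mem_Fx.2 m1⟩)
    (b := ⟨_, mem_Fx.2 m2⟩) rfl rfl rfl ?_ (fun i => ?_) (fun i => ?_)
  · change ((a ^ (-2 : ℤ) : Kˣ) : K) * (((a * b : Kˣ) : K) * ((a * b⁻¹ : Kˣ) : K)) = 1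
    rw [← Units.val_mul, ← Units.val_mul, ← Units.val_one]
    congr 1
    rw [_root_.zpow_neg, _root_.zpow_two, mul_mul_mul_comm a b a b⁻¹, mul_inv_cancel b, mul_one, inv_mul_cancel]
  · have h3 : ∀ i, lam i ^ (ℓ₁ * ℓ₂) = 1 := by
      intro i
      fin_cases i
      · change (a ^ (-2 : ℤ)) ^ (ℓ₁ * ℓ₂) = 1
        rw [← _root_.zpow_natCast, ← _root_.zpow_mul, mul_comm, _root_.zpow_mul, _root_.zpow_natCast, pow_mul, ha0, one_pow, _root_.one_zpow]
      · change (a * b) ^ (ℓ₁ * ℓ₂) = 1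
        rw [mul_pow, pow_mul, ha0, one_pow, mul_comm ℓ₁, pow_mul, hb0, one_pow, mul_one]
      · change (a * b⁻¹) ^ (ℓ₁ * ℓ₂) = 1
        rw [mul_pow, pow_mul, ha0, one_pow, mul_comm ℓ₁, pow_mul, inv_pow, hb0, inv_one, one_pow, mul_one]
    rw [← Units.val_pow_eq_pow_val, h3, Units.val_one]
  · have h3 : ∀ i, lam i ≠ 1 := by
      intro i
      fin_cases i
      · exact ha' (-2) (by norm_num) (by norm_num)
      · exact n1
      · exact n2
    exact fun h => h3 i (Units.ext h)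

end Cfsg.Agent.H928.Pw.TwFour
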