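import Cfsg.Agent.H928.Pw.TwJ
import Cfsg.Agent.H928.Pw.Dg
import Cfsg.Agent.H482.Ore.Block

/-!
`²E₆(q)`: the elements `f(X) ψ(x)`, `X ∈ SL₃(q)`, `x ∈ SL₂(q²)` of coprime orders without eigenvalue `1`, have no fixed
points on the unipotent radicals of the relative nodes `{0, 1, 3}` (S2465).
-/

set_option autoImplicit false
set_option linter.unusedSectionVars false

namespace Cfsg.Agent.H928.Pw.TwNf

open CoxeterSystem Cfsg.Agent.ChevalleyStructure.CoxeterGeom Cfsg.Agent.Tits.Roots Cfsg.Agent.Tits.Core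
  Cfsg.Agent.Nodes Cfsg.Agent.Nodes.Reps Cfsg.Agent.Nodes.BNOf Cfsg.Agent.Nodes.RGDLib Cfsg.Agent.Nodes.Bruhat
  Cfsg.Agent.Nodes.OppDec Cfsg.Agent.Nodes.LeviDec Cfsg.Agent.Nodes.StabComb Cfsg.Agent.Nodes.KindChev
  Cfsg.Agent.Nodes.ChevCls
  Cfsg.Agent.OddHalf.NI.ModelChev
  Cfsg.Agent.H162.GaussDec Cfsg.Agent.H162.GaussLevi Cfsg.Agent.H162.GaussSL Cfsg.Agent.H162.GaussReg
  Cfsg.Agent.H928.Ore.Frame Cfsg.Agent.H928.Ore.Fix Cfsg.Agent.H928.Ore.Block Cfsg.Agent.H928.Ore.TwE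
  Cfsg.Agent.H928.Ore.TwS Cfsg.Agent.H928.Ore.TwF Cfsg.Agent.H928.Pw.TwJ Cfsg.Agent.H928.Pw.Dg
open Cfsg.Lie Cfsg.Agent.ChevalleyStructure Cfsg.Agent.ChevalleyStructure.Elts
  Cfsg.Agent.ChevalleyStructure.NPerm
  Cfsg.Agent.ChevalleyStructure.CoxeterGeomTypes Cfsg.Agent.Nodes.RGDChev Cfsg.Agent.KFacts.RgdChevCoord
open Cfsg.Agent.Nodes.RGDTwGen Cfsg.Agent.Nodes.RGDFold Cfsg.Agent.Nodes.RGDTwE6
open Cfsg.Agent.Nodes.RGDFoldSL (Fx mem_Fx)
open Cfsg.Agent.FixBN.FieldRGD (uu vv dd ww)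
open Cfsg.Agent.H162.GaussExcMain (r6 rt6 exists_hom_D w6)
open Cfsg.Agent.H482.Ore.Fix (Bk Dz SimpB wt)
open scoped MatrixGroups

universe u v

/-! ### The tables -/

theorem tab3 : ∀ s : Fin 72, (∃ k : Fin 6, (k = 2 ∨ k = 4) ∧ vec chevE6 6 s k ≠ 0) →
    (chevE6.cartan (3 : Fin 6) s + chevE6.cartan (1 : Fin 6) s = 0 ∧ chevE6.cartan (1 : Fin 6) s = 0 ∧
      ((chevE6.cartan (0 : Fin 6) s = 0 ∧ (chevE6.cartan (5 : Fin 6) s = 1 ∨ chevE6.cartan (5 : Fin 6) s = -1)) ∨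
       (chevE6.cartan (5 : Fin 6) s = 0 ∧ (chevE6.cartan (0 : Fin 6) s = 1 ∨ chevE6.cartan (0 : Fin 6) s = -1)))) ∨
    ((chevE6.cartan (3 : Fin 6) s + chevE6.cartan (1 : Fin 6) s = 0 ∧
       (chevE6.cartan (1 : Fin 6) s = 1 ∨ chevE6.cartan (1 : Fin 6) s = -1)) ∨
     (chevE6.cartan (3 : Fin 6) s + chevE6.cartan (1 : Fin 6) s = 1 ∧
       (chevE6.cartan (1 : Fin 6) s = 0 ∨ chevE6.cartan (1 : Fin 6) s = 1)) ∨
     (chevE6.cartan (3 : Fin 6) s + chevE6.cartan (1 : Fin 6) s = -1 ∧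
       (chevE6.cartan (1 : Fin 6) s = 0 ∨ chevE6.cartan (1 : Fin 6) s = -1))) := by decide +kernel

/-- the roots of the block of a node -/
def r1 (i : Fin 6) : Fin 2 → Fin 2 → ℕ := ![![0, chevE6.simple i], ![chevE6.neg (chevE6.simple i), 0]]

theorem simp6 : SimpB chevE6 6 1 r6 ![3, 1] where
  up := by decide +kernel
  dn := by decide +kernel

theorem simp1 (i : Fin 6) : SimpB chevE6 6 0 (r1 i) ![i] where
  up := by revert i; decide +kernel
  dn := by revert i; decide +kernel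

theorem tabJ : (∀ a b : Fin 3, a ≠ b → ∀ k : Fin 6, (k = 2 ∨ k = 4) → vec chevE6 6 (r6 a b) k = 0) ∧
    ∀ i : Fin 6, (i = 0 ∨ i = 5) → ∀ a b : Fin 2, a ≠ b → ∀ k : Fin 6, (k = 2 ∨ k = 4) → vec chevE6 6 (r1 i a b) k = 0 := by
  decide +kernel

theorem r1_lt : ∀ i : Fin 6, ∀ a b : Fin 2, a ≠ b → r1 i a b < 72 := by decide +kernel

section

variable {K : Type u} {K' : Type v} [Field K] [Field K'] (ι : K →+* K')

theorem bk6 {P : Matrix.SpecialLinearGroup (Fin 3) K →* ↥(chevE6.group K)}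
    (hP : ∀ a b (hab : a ≠ b) c, P (Matrix.SpecialLinearGroup.transvection hab c) =
      xc RGDTwE6.hp (vec chevE6 6 (r6 a b)) (((1 : ℤ) : K) * c))
    {P' : Matrix.SpecialLinearGroup (Fin 3) K' →* ↥(chevE6.group K')}
    (hP' : ∀ a b (hab : a ≠ b) c, P' (Matrix.SpecialLinearGroup.transvection hab c) =
      xc RGDTwE6.hp (vec chevE6 6 (r6 a b)) (((1 : ℤ) : K') * c)) :
    Bk RGDTwE6.hp ι J3A 1 r6 ![3, 1] P P' (fun _ _ => 1) where
  simp := simp6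
  rlt a b hab := rlt a b hab
  rJ a b hab k hk := tabJ.1 a b hab k (not_J3A.1 hk)
  hφ a b hab c := by rw [hP, Int.cast_one]
  hφ' a b hab c := by rw [hP', Int.cast_one, map_one]
  ss _ := mul_one 1

theorem sl_tv (i : Fin 6) {a b : Fin 2} (hab : a ≠ b) (c : K) :
    sl RGDTwE6.hp i (Matrix.SpecialLinearGroup.transvection hab c) = xc RGDTwE6.hp (vec chevE6 6 (r1 i a b)) c := by
  have hi := simple_lt RGDTwE6.hp.inList (lt_rank RGDTwE6.hp i)
  fin_cases a <;> fin_cases b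
  · exact absurd rfl hab
  · have e1 : sl RGDTwE6.hp i (Matrix.SpecialLinearGroup.transvection hab c) = sl RGDTwE6.hp i (uu c) :=
      congrArg _ (tv01 c)
    rw [e1, sl_uu, ← vec_simple RGDTwE6.hp i]
    rfl
  · have e1 : sl RGDTwE6.hp i (Matrix.SpecialLinearGroup.transvection hab c) = sl RGDTwE6.hp i (vv c) :=
      congrArg _ (tv10 c)
    rw [e1, sl_vv, ← vec_simple RGDTwE6.hp i, ← vec_neg RGDTwE6.hp hi]
    rfl
  · exact absurd rfl hab

theorem bk1 {i : Fin 6} (hi : i = 0 ∨ i = 5) :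
    Bk RGDTwE6.hp ι J3A 0 (r1 i) ![i] (sl (K := K) RGDTwE6.hp i) (sl (K := K') RGDTwE6.hp i) (fun _ _ => 1) where
  simp := simp1 i
  rlt a b hab := r1_lt i a b hab
  rJ a b hab k hk := tabJ.2 i hi a b hab k (not_J3A.1 hk)
  hφ a b hab c := by rw [sl_tv, one_mul]
  hφ' a b hab c := by rw [sl_tv, map_one, one_mul]
  ss _ := mul_one 1

end

/-! ### The fixed points -/

theorem wt6 (q : ℕ) : wt chevE6 (![3, 1] : Fin 2 → Fin 6) q 0 = chevE6.cartan (3 : Fin 6) q + chevE6.cartan (1 : Fin 6) q ∧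
    wt chevE6 (![3, 1] : Fin 2 → Fin 6) q 1 = chevE6.cartan (1 : Fin 6) q ∧
    wt chevE6 (![3, 1] : Fin 2 → Fin 6) q 2 = 0 := by
  refine ⟨?_, ?_, ?_⟩
  · unfold wt
    rw [Fin.sum_univ_two, if_pos (by decide), if_pos (by decide)]
    rfl
  · unfold wt
    rw [Fin.sum_univ_two, if_neg (by decide), if_pos (by decide), zero_add]
    rfl
  · unfold wt
    rw [Fin.sum_univ_two, if_neg (by decide), if_neg (by decide), zero_add]

theorem wt1 (i : Fin 6) (q : ℕ) : wt chevE6 (![i] : Fin 1 → Fin 6) q 0 = chevE6.cartan i q ∧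
    wt chevE6 (![i] : Fin 1 → Fin 6) q 1 = 0 := by
  constructor
  · unfold wt
    rw [Fin.sum_univ_one, if_pos (by decide)]
    rfl
  · unfold wt
    rw [Fin.sum_univ_one, if_neg (by decide)]

theorem val6 {K : Type*} [Field K] (lam : Fin 3 → K) (q : ℕ) :
    ∏ b, lam b ^ wt chevE6 (![3, 1] : Fin 2 → Fin 6) q b =
      lam 0 ^ (chevE6.cartan (3 : Fin 6) q + chevE6.cartan (1 : Fin 6) q) * lam 1 ^ chevE6.cartan (1 : Fin 6) q := by
  obtain ⟨h0, h1, h2⟩ := wt6 q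
  rw [Fin.prod_univ_three, h0, h1, h2, zpow_zero, mul_one]

theorem val1 {K : Type*} [Field K] (i : Fin 6) (lam : Fin 2 → K) (q : ℕ) :
    ∏ b, lam b ^ wt chevE6 (![i] : Fin 1 → Fin 6) q b = lam 0 ^ chevE6.cartan i q := by
  obtain ⟨h0, h1⟩ := wt1 i q
  rw [Fin.prod_univ_two, h0, h1, zpow_zero, mul_one]

/-- the characters are not trivial -/
theorem char_ne {K : Type*} [Field K] {N M : ℕ} (hNM : N.Coprime M) {lam : Fin 3 → K} (h1 : ∏ i, lam i = 1)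
    (h2 : ∀ i, lam i ^ N = 1) (h3 : ∀ i, lam i ≠ 1) {a b : K} (ha : a ^ M = 1) (hb : b ^ M = 1) (ha1 : a ≠ 1) (hb1 : b ≠ 1)
    (s : Fin 72) (hs : ∃ k : Fin 6, (k = 2 ∨ k = 4) ∧ vec chevE6 6 s k ≠ 0) :
    (lam 0 ^ (chevE6.cartan (3 : Fin 6) s + chevE6.cartan (1 : Fin 6) s) * lam 1 ^ chevE6.cartan (1 : Fin 6) s) *
      (a ^ chevE6.cartan (0 : Fin 6) s * b ^ chevE6.cartan (5 : Fin 6) s) ≠ 1 := by
  have hab : ∀ i j : ℤ, (a ^ i * b ^ j) ^ M = 1 := by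
    intro i j
    rw [mul_pow, ← zpow_natCast, ← zpow_natCast, ← zpow_mul, ← zpow_mul, mul_comm i, mul_comm j, zpow_mul, zpow_mul,
      zpow_natCast, zpow_natCast, ha, hb, one_zpow, one_zpow, mul_one]
  have key : ∀ (x y : K), x ^ N = 1 → y ^ M = 1 → x ≠ 1 → x * y ≠ 1 := by
    intro x y hx hy hx1 hxy
    apply hx1
    have h4 : x ^ M = 1 := by
      have := congrArg (· ^ M) hxy
      simp only [mul_pow, hy, mul_one, one_pow] at this
      exact this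
    have h5 := Nat.dvd_gcd (orderOf_dvd_of_pow_eq_one hx) (orderOf_dvd_of_pow_eq_one h4)
    rw [hNM.gcd_eq_one, Nat.dvd_one, orderOf_eq_one_iff] at h5
    exact h5
  have hl : ∀ i, lam i ≠ 0 := by
    intro i hi
    rw [Finset.prod_eq_zero (Finset.mem_univ i) hi] at h1
    exact zero_ne_one h1
  have h01 : lam 0 * lam 1 = (lam 2)⁻¹ := by
    rw [Fin.prod_univ_three] at h1
    exact eq_inv_of_mul_eq_one_left h1
  rcases tab3 s hs with ⟨e1, e2, e3⟩ | e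
  · rw [e1, e2, zpow_zero, zpow_zero, one_mul, one_mul]
    rcases e3 with ⟨e3, e4⟩ | ⟨e3, e4⟩
    · rw [e3, zpow_zero, one_mul]
      rcases e4 with e4 | e4
      · rw [e4, zpow_one]; exact hb1
      · rw [e4, zpow_neg_one]; exact fun h => hb1 (inv_eq_one.1 h)
    · rw [e3, zpow_zero, mul_one]
      rcases e4 with e4 | e4
      · rw [e4, zpow_one]; exact ha1
      · rw [e4, zpow_neg_one]; exact fun h => ha1 (inv_eq_one.1 h)
  · refine key _ _ ?_ (hab _ _) ?_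
    · rcases e with ⟨e1, e2 | e2⟩ | ⟨e1, e2 | e2⟩ | ⟨e1, e2 | e2⟩
      · rw [e1, e2, zpow_zero, zpow_one, one_mul, h2]
      · rw [e1, e2, zpow_zero, zpow_neg_one, one_mul, inv_pow, h2, inv_one]
      · rw [e1, e2, zpow_zero, zpow_one, mul_one, h2]
      · rw [e1, e2, zpow_one, zpow_one, mul_pow, h2, h2, mul_one]
      · rw [e1, e2, zpow_zero, zpow_neg_one, mul_one, inv_pow, h2, inv_one]
      · rw [e1, e2, zpow_neg_one, zpow_neg_one, mul_pow, inv_pow, inv_pow, h2, h2, inv_one, mul_one]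
    · rcases e with ⟨e1, e2 | e2⟩ | ⟨e1, e2 | e2⟩ | ⟨e1, e2 | e2⟩
      · rw [e1, e2, zpow_zero, zpow_one, one_mul]; exact h3 1
      · rw [e1, e2, zpow_zero, zpow_neg_one, one_mul]; exact fun h => h3 1 (inv_eq_one.1 h)
      · rw [e1, e2, zpow_zero, zpow_one, mul_one]; exact h3 0
      · rw [e1, e2, zpow_one, zpow_one, h01]; exact fun h => h3 2 (inv_eq_one.1 h)
      · rw [e1, e2, zpow_zero, zpow_neg_one, mul_one]; exact fun h => h3 0 (inv_eq_one.1 h)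
      · rw [e1, e2, zpow_neg_one, zpow_neg_one, ← mul_inv, h01, inv_inv]; exact h3 2

/-- **No fixed points in `E₆(K)`.** -/
theorem nf3 {K : Type u} [Field K] [Finite K] {P : Matrix.SpecialLinearGroup (Fin 3) K →* ↥(chevE6.group K)}
    (hP : ∀ a b (hab : a ≠ b) c, P (Matrix.SpecialLinearGroup.transvection hab c) =
      xc RGDTwE6.hp (vec chevE6 6 (r6 a b)) (((1 : ℤ) : K) * c)) {N M : ℕ} (hNM : N.Coprime M)
    {A : Matrix.SpecialLinearGroup (Fin 3) K} {x y : SL(2, K)} (hA : Sp N A) (hx : Sp M x) (hy : Sp M y) :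
    NF (VJ CoxeterMatrix.E₆.toCoxeterSystem RGDTwE6.hp.isCartan (XX chevE6 6 K) J3A)
      (P A * (sl RGDTwE6.hp (0 : Fin 6) x * sl RGDTwE6.hp (5 : Fin 6) y)) ∧
    NF (VNJ CoxeterMatrix.E₆.toCoxeterSystem RGDTwE6.hp.isCartan (XX chevE6 6 K) J3A)
      (P A * (sl RGDTwE6.hp (0 : Fin 6) x * sl RGDTwE6.hp (5 : Fin 6) y)) := by
  classical
  obtain ⟨p, hpc⟩ := CharP.exists K
  have : Fact p.Prime := ⟨(CharP.char_is_prime_or_zero K p).resolve_right (CharP.char_ne_zero_of_finite K p)⟩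
  -- the field
  let g : Polynomial K := (A : Matrix (Fin 3) (Fin 3) K).charpoly *
    ((x : Matrix (Fin 2) (Fin 2) K).charpoly * (y : Matrix (Fin 2) (Fin 2) K).charpoly)
  have hg0 : g ≠ 0 := mul_ne_zero (Matrix.charpoly_monic _).ne_zero
    (mul_ne_zero (Matrix.charpoly_monic _).ne_zero (Matrix.charpoly_monic _).ne_zero)
  have hfin : Finite g.SplittingField := Module.finite_of_finite K
  let ι : K →+* g.SplittingField := algebraMap K g.SplittingField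
  have hsp : (g.map ι).Splits := Polynomial.SplittingField.splits g
  have hg0' : g.map ι ≠ 0 := (Polynomial.map_ne_zero_iff ι.injective).2 hg0
  have : CharP g.SplittingField p := by
    rw [← (RingHom.charP_iff ι ι.injective p)]
    infer_instance
  have hd : ∀ f : Polynomial K, f ∣ g → (f.map ι).Splits := fun f hf =>
    Polynomial.Splits.of_dvd hsp hg0' (Polynomial.map_dvd ι hf)
  obtain ⟨lam, g1, e1, a1, a2, a3⟩ := hA.diag ι (hd _ (Dvd.intro _ rfl)) (by norm_num)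
  obtain ⟨mu, g2, e2, -, b2, b3⟩ := hx.diag ι (hd _ (Dvd.dvd.mul_left (Dvd.intro _ rfl) _)) (by norm_num)
  obtain ⟨nu, g3, e3, -, c2, c3⟩ := hy.diag ι (hd _ (Dvd.dvd.mul_left (Dvd.intro_left _ rfl) _)) (by norm_num)
  obtain ⟨P', hP'⟩ := exists_hom_D RGDTwE6.hp (K := g.SplittingField) (ε := 1) (by norm_num) rt6.1 rt6.2.1 rt6.2.2.1
    rt6.2.2.2
  have D1 := (bk6 ι hP hP').dz RGDTwE6.hp e1
  have D2 := (bk1 ι (i := 0) (Or.inl rfl)).dz RGDTwE6.hp e2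
  have D3 := (bk1 ι (i := 5) (Or.inr rfl)).dz RGDTwE6.hp e3
  have hc23 : ∀ s ∈ (sl (K := g.SplittingField) RGDTwE6.hp (0 : Fin 6)).range,
      ∀ t ∈ (sl (K := g.SplittingField) RGDTwE6.hp (5 : Fin 6)).range, s * t = t * s := by
    rintro _ ⟨B, rfl⟩ _ ⟨C, rfl⟩
    exact sl_comm B C
  have hc1 : ∀ s ∈ P'.range, ∀ t ∈ (sl (K := g.SplittingField) RGDTwE6.hp (0 : Fin 6)).range ⊔
      (sl (K := g.SplittingField) RGDTwE6.hp (5 : Fin 6)).range, s * t = t * s := by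
    intro s hs t ht
    symm
    refine Cfsg.Agent.H482.Ore.Fix.comm_sup ?_ ?_ t ht s hs
    · rintro _ ⟨B, rfl⟩ _ ⟨C, rfl⟩
      exact sl_comm_block hP' (Or.inl rfl) B C
    · rintro _ ⟨B, rfl⟩ _ ⟨C, rfl⟩
      exact sl_comm_block hP' (Or.inr rfl) B C
  have D23 := D2.mul RGDTwE6.hp D3 hc23
  have D := D1.mul RGDTwE6.hp D23 hc1
  refine D.nf RGDTwE6.hp p fun s hs hk => ?_
  obtain ⟨k, hk, hk0⟩ := hk
  rw [val6, val1, val1]
  exact char_ne hNM a1 a2 a3 (b2 0) (c2 0) (b3 0) (c3 0) ⟨s, hs⟩ ⟨k, not_J3A.1 hk, hk0⟩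

end Cfsg.Agent.H928.Pw.TwNf
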